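import Cfsg.Agent.H721.SR.Base
import Cfsg.Agent.ThreePrime.SzRel
import Cfsg.Agent.ChevalleyStructure.Ree.Data

/-!
# TEAM SR: the Suzuki and Ree groups have non-real elements (S4971, S4970)
-/

set_option autoImplicit false

namespace Cfsg.Agent.H686.SR.SzRee

open Cfsg Cfsg.Agent.H721.SR Cfsg.Agent.ThreePrime.SzRel Cfsg.Agent.LieRecognition

section sz

variable {J : Type*} [Group J] {F : Type*} [Field F] (R : Cfsg.Agent.ThreePrime.SzRel.Rel J F)

theorem x_inv : (R.u 1 0)⁻¹ = R.u 1 1 := by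
  rw [R.u_inv, map_one, mul_one, zero_add]

/-- the element `u 1 0` of order four is not real -/
theorem not_real_sz : ¬ IsConj (R.u 1 0) (R.u 1 0)⁻¹ := by
  intro h
  rw [x_inv] at h
  obtain ⟨g, hg⟩ := isConj_iff.1 h
  have hx1 : R.u 1 0 ≠ 1 := by
    intro h1
    rw [← R.u_zero] at h1
    exact one_ne_zero (R.u_inj h1).1
  obtain ⟨a, b, k, rfl⟩ := R.exists_ud (R.u_mem 1 0) hx1 (by rw [hg]; exact R.u_mem _ _)
  have h1 : (R.u a b * R.d k) * R.u 1 0 * (R.u a b * R.d k)⁻¹ =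
      R.u a b * (R.d k * R.u 1 0 * (R.d k)⁻¹) * (R.u a b)⁻¹ := by group
  rw [h1, R.conj_d, R.conj_u] at hg
  obtain ⟨h2, h3⟩ := R.u_inj hg
  rw [h2, map_one, zero_mul, one_mul, zero_add, mul_one] at h3
  have h4 := congrArg R.θ h3
  rw [map_add, R.sq, map_one] at h4
  have h5 : a ^ 2 - a = 0 := by linear_combination h4 - h3
  have h6 : a * (a - 1) = 0 := by linear_combination h5
  have h7 := R.two
  rcases mul_eq_zero.1 h6 with h8 | h8
  · rw [h8, map_zero, zero_add] at h3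
    exact one_ne_zero h3.symm
  · rw [sub_eq_zero] at h8
    rw [h8, map_one] at h3
    have h9 : (1 : F) = 0 := by linear_combination h7 - h3
    exact one_ne_zero h9

end sz

/-- **The Suzuki groups.** -/
theorem nrel_sz {S : Type*} [Group S] (h : Cfsg.Lie.IsoSuzuki S) : NRel S := by
  obtain ⟨F, i1, i2, m, hm, hF, ⟨e⟩⟩ := h
  refine NRel.congr e.symm ?_
  exact ⟨_, not_real_sz (ofGood (Cfsg.Agent.LieRecognition.SzMatrix.good hF))⟩

theorem rr_sz {S : Type*} [Group S] (h : Cfsg.Lie.IsoSuzuki S) : RR S := RR.of_nrel (nrel_sz h)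

section ree

variable {K : Type*} [Field K] [Fintype K] {G : Type*} [Group G] {m : ℕ} {U : K → K → K → G} {h : Kˣ → G} {n : G}

omit [Fintype K] in
theorem U_zero (D : ReeAbs.Data m U h n) : U 0 0 0 = 1 := by
  have h1 := D.U_mul 0 0 0 0 0 0
  have h3 : (0 : K) ^ (3 ^ (m + 1)) = 0 := zero_pow (by positivity)
  simp only [h3, add_zero, mul_zero, sub_zero] at h1
  exact mul_eq_left.1 h1

omit [Fintype K] in
theorem U_inv (D : ReeAbs.Data m U h n) : (U 0 1 0)⁻¹ = U 0 (-1) 0 := by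
  rw [inv_eq_iff_mul_eq_one, D.U_mul, ← U_zero D]
  have h3 : (0 : K) ^ (3 ^ (m + 1)) = 0 := zero_pow (by positivity)
  congr 1 <;> simp [h3]

/-- `-1` is not a square -/
theorem not_isSquare_neg_one (hK : Fintype.card K = 3 ^ (2 * m + 1)) : ¬ IsSquare (-1 : K) := by
  rw [FiniteField.isSquare_neg_one_iff, hK]
  intro h1
  apply h1
  have h2 : 3 ^ (2 * m + 1) % 4 = 3 := by
    rw [pow_succ, pow_mul, Nat.mul_mod, Nat.pow_mod]
    norm_num
  exact h2

/-- the element `U 0 1 0` is not real -/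
theorem not_real_ree (hK : Fintype.card K = 3 ^ (2 * m + 1)) (D : ReeAbs.Data m U h n) :
    ¬ IsConj (U 0 1 0) (U 0 1 0)⁻¹ := by
  intro hc
  obtain ⟨g, hg⟩ := isConj_iff.1 hc
  have h3 : (0 : K) ^ (3 ^ (m + 1)) = 0 := zero_pow (by positivity)
  have hg' : g * U 0 1 0 = U 0 (-1) 0 * g := by
    rw [← U_inv D, ← hg]
    group
  rcases D.bruhat g with ⟨t, u, v, a, rfl⟩ | ⟨t, u, v, a, t', u', v', rfl⟩
  · rw [mul_assoc, D.h_U, ← mul_assoc, D.U_mul, ← mul_assoc (U 0 (-1) 0), D.U_mul] at hg'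
    obtain ⟨-, h2, -, -⟩ := D.inj₁ _ _ _ _ _ _ _ _ hg'
    simp only [mul_zero, mul_one, h3, sub_zero, zero_mul] at h2
    have h4 : (a : K) ^ (3 ^ (m + 1) + 3) = -1 := by
      have := h2
      linear_combination this
    apply not_isSquare_neg_one hK
    have h5 : Even (3 ^ (m + 1) + 3) := by
      have : Odd (3 ^ (m + 1)) := Odd.pow (by decide)
      exact this.add_odd (by decide)
    rw [← h4]
    exact h5.isSquare_pow _
  · rw [mul_assoc (U t u v * h a * n), D.U_mul] at hg'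
    have h5 : U 0 (-1) 0 * (U t u v * h a * n * U t' u' v') =
        (U 0 (-1) 0 * U t u v) * h a * n * U t' u' v' := by group
    rw [h5, D.U_mul] at hg'
    obtain ⟨-, -, -, -, -, h2, -⟩ := D.inj₂ _ _ _ _ _ _ _ _ _ _ _ _ _ _ hg'
    simp only [h3, mul_zero, sub_zero] at h2
    have h6 : (1 : K) = 0 := by linear_combination h2
    exact one_ne_zero h6

end ree

/-- **The Ree groups.** -/
theorem nrel_ree {S : Type*} [Group S] (h : Cfsg.Lie.IsoRee S) : NRel S := by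
  obtain ⟨K, _, _, m, hm, hK, ⟨e⟩⟩ := h
  refine NRel.congr e.symm ?_
  obtain ⟨U, h, n, D⟩ := ChevalleyStructure.Ree.Data.exists_data (K := K) hK
  exact ⟨_, not_real_ree hK D⟩

theorem rr_ree {S : Type*} [Group S] (h : Cfsg.Lie.IsoRee S) : RR S := RR.of_nrel (nrel_ree h)

end Cfsg.Agent.H686.SR.SzRee
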